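import Cfsg.Agent.OT.B
import Cfsg.Agent.OT.C

set_option autoImplicit false
set_option maxRecDepth 100000

namespace Cfsg.Agent.OT
open Cfsg.Agent.Comp

def fH (m : ℕ) : ℕ := Nat.mul (Nat.mul (Nat.mul (Nat.mul (Nat.mul (Nat.mul (Nat.mul (Nat.mul (Nat.mul (Nat.mul (Nat.mul (cnt dP m) (cnt dH0 m)) (cnt dH1 m)) (cnt dH1 m)) (cnt dH2 m)) (cnt dH3 m)) (cnt dH4 m)) (cnt dH4 m)) (cnt dH5 m)) (cnt dH6 m)) (cnt dH7 m)) (cnt dH8 m)

def fG (m : ℕ) : ℕ := Nat.mul (Nat.mul (Nat.mul (Nat.mul (Nat.mul (Nat.mul (Nat.mul (Nat.mul (Nat.mul (cnt dG0 m) (cnt dG1 m)) (cnt dG2 m)) (cnt dG3 m)) (cnt dG4 m)) (cnt dG5 m)) (cnt dG6 m)) (cnt dG7 m)) (cnt dG8 m)) (cnt dG9 m)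

theorem fGH : allLt 169 (fun m => bor (not (Nat.beq (Nat.mod 168 m) 0)) (Nat.beq (fG m) (fH m))) = true := by
  decide +kernel

theorem reH : Re Not fun n => fH (Nat.gcd n 168) := by
  have a : ∀ a b : Prop, ¬ a → (fun _ => True) b → ¬ (a ∧ b) := fun _ _ h _ k => h k.1
  have h := reOf (p := Not) eP (nsC_ns nP)
  have h := h.mul (reOf (p := fun _ => True) eH0 trivial) a
  have h := h.mul (reOf (p := fun _ => True) eH1 trivial) a
  have h := h.mul (reOf (p := fun _ => True) eH1 trivial) a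
  have h := h.mul (reOf (p := fun _ => True) eH2 trivial) a
  have h := h.mul (reOf (p := fun _ => True) eH3 trivial) a
  have h := h.mul (reOf (p := fun _ => True) eH4 trivial) a
  have h := h.mul (reOf (p := fun _ => True) eH4 trivial) a
  have h := h.mul (reOf (p := fun _ => True) eH5 trivial) a
  have h := h.mul (reOf (p := fun _ => True) eH6 trivial) a
  have h := h.mul (reOf (p := fun _ => True) eH7 trivial) a
  have h := h.mul (reOf (p := fun _ => True) eH8 trivial) a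
  exact h

theorem reG : Re id fun n => fG (Nat.gcd n 168) := by
  have a : ∀ a b : Prop, id a → id b → id (a ∧ b) := fun _ _ h k => ⟨h, k⟩
  have h := reOf (p := id) eG0 (solvC_solv _ _ sG0)
  have h := h.mul (reOf (p := id) eG1 (solvC_solv _ _ sG1)) a
  have h := h.mul (reOf (p := id) eG2 (solvC_solv _ _ sG2)) a
  have h := h.mul (reOf (p := id) eG3 (solvC_solv _ _ sG3)) a
  have h := h.mul (reOf (p := id) eG4 (solvC_solv _ _ sG4)) a
  have h := h.mul (reOf (p := id) eG5 (solvC_solv _ _ sG5)) a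
  have h := h.mul (reOf (p := id) eG6 (solvC_solv _ _ sG6)) a
  have h := h.mul (reOf (p := id) eG7 (solvC_solv _ _ sG7)) a
  have h := h.mul (reOf (p := id) eG8 (solvC_solv _ _ sG8)) a
  have h := h.mul (reOf (p := id) eG9 (solvC_solv _ _ sG9)) a
  exact h

theorem main : ∃ (G : Type) (_ : Group G) (_ : Finite G) (H : Type) (_ : Group H) (_ : Finite H),
    Group.IsSolvable G ∧ ¬ Group.IsSolvable H ∧
      ∀ n : ℕ, Nat.card {g : G // orderOf g = n} = Nat.card {h : H // orderOf h = n} := by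
  obtain ⟨G, _, _, g1, g2⟩ := reG
  obtain ⟨H, _, _, h1, h2⟩ := reH
  refine ⟨G, inferInstance, inferInstance, H, inferInstance, inferInstance, g1, h1, orderType G H fun n => ?_⟩
  rw [g2, h2]
  have hd : Nat.gcd n 168 ∣ 168 := Nat.gcd_dvd_right _ _
  have := allLt_iff.1 fGH _ (Nat.lt_succ_of_le (Nat.le_of_dvd (by norm_num) hd))
  have e : Nat.beq (Nat.mod 168 (Nat.gcd n 168)) 0 = true := nbeq.2 (Nat.mod_eq_zero_of_dvd hd)
  rw [e] at this
  exact nbeq.1 this

end Cfsg.Agent.OT
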